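import Mathlib
import Cfsg.Agent.Lib.Helper25.ACStmt

set_option autoImplicit false

/-!
# S3912 piece TYPEII

`P₁ ⊔ H₁` and `P₂ ⊔ H₂` are conjugate: (B) moves `H₁` to `H₂`; the images of `P₁` and `P₂` are
Sylow 2-subgroups of `X ⊓ centralizer H₂`.
-/

namespace Cfsg.Agent.Lib.Helper4.ACTYPEII

open Cfsg.Agent.Lib.Helper25.ACStmt

open scoped Pointwise

universe u

theorem main : TypeII.{u} := by
  intro G _ _ hB X hXn hXc P₁ P₂ H₁ H₂ hP₁X hP₂X hP₁c hP₂c hH₁ab hH₂ab hHc hc₁ hc₂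
  obtain ⟨m, hm, hXm⟩ := hXc
  have hH₁comm : IsMulCommutative ↥H₁ := ⟨⟨fun a b => Subtype.ext (hH₁ab a.1 a.2 b.1 b.2)⟩⟩
  have hH₂comm : IsMulCommutative ↥H₂ := ⟨⟨fun a b => Subtype.ext (hH₂ab a.1 a.2 b.1 b.2)⟩⟩
  obtain ⟨g, hg⟩ := hB H₁ H₂ hH₁comm hH₂comm hHc
  have hmemH₂ : ∀ h : G, h ∈ H₂ ↔ ∃ k ∈ H₁, g * k * g⁻¹ = h := by
    intro h
    rw [hg, Subgroup.mem_map]
    simp [MulAut.conj_apply]
  set P₁' : Subgroup G := P₁.map (MulAut.conj g).toMonoidHom with hP₁'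
  have hmemP₁' : ∀ x : G, x ∈ P₁' ↔ ∃ y ∈ P₁, g * y * g⁻¹ = x := by
    intro x
    rw [hP₁', Subgroup.mem_map]
    simp [MulAut.conj_apply]
  have hP₁'c : Nat.card ↥P₁' = 8 := by
    rw [hP₁', Subgroup.card_map_of_injective (MulEquiv.injective _)]
    exact hP₁c
  set C : Subgroup G := X ⊓ Subgroup.centralizer (H₂ : Set G) with hC
  have hP₁'C : P₁' ≤ C := by
    intro x hx
    obtain ⟨y, hy, rfl⟩ := (hmemP₁' x).1 hx
    refine Subgroup.mem_inf.2 ⟨hXn.conj_mem y (hP₁X hy) g, ?_⟩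
    rw [Subgroup.mem_centralizer_iff]
    intro h hh
    obtain ⟨k, hk, rfl⟩ := (hmemH₂ h).1 hh
    have := hc₁ k hk y hy
    calc g * k * g⁻¹ * (g * y * g⁻¹) = g * (k * y) * g⁻¹ := by group
      _ = g * (y * k) * g⁻¹ := by rw [this]
      _ = g * y * g⁻¹ * (g * k * g⁻¹) := by group
  have hP₂C : P₂ ≤ C := by
    intro x hx
    refine Subgroup.mem_inf.2 ⟨hP₂X hx, ?_⟩
    rw [Subgroup.mem_centralizer_iff]
    intro h hh
    exact hc₂ h hh x hx
  -- the order of `C`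
  have h8C : 8 ∣ Nat.card ↥C := by
    rw [← hP₂c]; exact Subgroup.card_dvd_of_le hP₂C
  obtain ⟨k, hk⟩ := h8C
  have hkm : k ∣ m := by
    have h1 : Nat.card ↥C ∣ Nat.card ↥X := Subgroup.card_dvd_of_le inf_le_left
    rw [hk, hXm] at h1
    exact (Nat.mul_dvd_mul_iff_left (by norm_num)).1 h1
  have hkodd : Odd k := Odd.of_dvd_nat hm hkm
  have hidx : ∀ Q : Subgroup ↥C, Nat.card ↥Q = 8 → ¬ 2 ∣ Q.index := by
    intro Q hQ h2
    have h1 := Subgroup.card_mul_index Q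
    rw [hQ, hk] at h1
    have h3 : Q.index = k := by omega
    rw [h3] at h2
    exact (Nat.not_even_iff_odd.2 hkodd) (even_iff_two_dvd.2 h2)
  have hQ₁c : Nat.card ↥(P₁'.subgroupOf C) = 8 := by
    rw [Nat.card_congr (Subgroup.subgroupOfEquivOfLe hP₁'C).toEquiv]; exact hP₁'c
  have hQ₂c : Nat.card ↥(P₂.subgroupOf C) = 8 := by
    rw [Nat.card_congr (Subgroup.subgroupOfEquivOfLe hP₂C).toEquiv]; exact hP₂c
  have hpg₁ : IsPGroup 2 ↥(P₁'.subgroupOf C) := IsPGroup.of_card (n := 3) (by rw [hQ₁c]; norm_num)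
  have hpg₂ : IsPGroup 2 ↥(P₂.subgroupOf C) := IsPGroup.of_card (n := 3) (by rw [hQ₂c]; norm_num)
  obtain ⟨c, hc⟩ := MulAction.exists_smul_eq (↥C) (hpg₁.toSylow (hidx _ hQ₁c))
    (hpg₂.toSylow (hidx _ hQ₂c))
  have hcS : ∀ z : ↥C, z ∈ P₂.subgroupOf C ↔ c⁻¹ * z * c ∈ P₁'.subgroupOf C := by
    intro z
    have e : ((hpg₂.toSylow (hidx _ hQ₂c) : Sylow 2 ↥C) : Subgroup ↥C)
        = MulAut.conj c • ((hpg₁.toSylow (hidx _ hQ₁c) : Sylow 2 ↥C) : Subgroup ↥C) := by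
      rw [← hc, Sylow.coe_subgroup_smul]
    rw [IsPGroup.toSylow_coe, IsPGroup.toSylow_coe] at e
    rw [e, Subgroup.mem_pointwise_smul_iff_inv_smul_mem]
    simp [MulAut.smul_def, MulAut.conj_inv_apply]
  have hcC : (c : G) ∈ C := c.2
  have hccent : ∀ h ∈ H₂, h * (c : G) = (c : G) * h := by
    intro h hh
    exact (Subgroup.mem_centralizer_iff.1 (Subgroup.mem_inf.1 hcC).2) h hh
  refine ⟨(c : G) * g, ?_⟩
  rw [Subgroup.map_sup]
  have e1 : P₁.map (MulAut.conj ((c : G) * g)).toMonoidHom = P₂ := by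
    ext x
    rw [Subgroup.mem_map]
    constructor
    · rintro ⟨y, hy, rfl⟩
      have hy' : g * y * g⁻¹ ∈ P₁' := (hmemP₁' _).2 ⟨y, hy, rfl⟩
      have hz : (c : G) * (g * y * g⁻¹) * (c : G)⁻¹ ∈ C :=
        C.mul_mem (C.mul_mem hcC (hP₁'C hy')) (C.inv_mem hcC)
      have := (hcS ⟨_, hz⟩).2 (by
        rw [Subgroup.mem_subgroupOf]
        have : ((c⁻¹ * (⟨_, hz⟩ : ↥C) * c : ↥C) : G) = g * y * g⁻¹ := by
          simp only [Subgroup.coe_mul, Subgroup.coe_inv]; group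
        rw [this]; exact hy')
      rw [Subgroup.mem_subgroupOf] at this
      simpa [MulAut.conj_apply, mul_assoc] using this
    · intro hx
      have hxC : x ∈ C := hP₂C hx
      have := (hcS ⟨x, hxC⟩).1 (by rw [Subgroup.mem_subgroupOf]; exact hx)
      rw [Subgroup.mem_subgroupOf] at this
      obtain ⟨y, hy, hyx⟩ := (hmemP₁' _).1 this
      refine ⟨y, hy, ?_⟩
      simp only [MulEquiv.coe_toMonoidHom, MulAut.conj_apply]
      have h2 : ((c⁻¹ * (⟨x, hxC⟩ : ↥C) * c : ↥C) : G) = (c : G)⁻¹ * x * (c : G) := by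
        simp only [Subgroup.coe_mul, Subgroup.coe_inv]
      rw [h2] at hyx
      calc (c : G) * g * y * ((c : G) * g)⁻¹ = (c : G) * (g * y * g⁻¹) * (c : G)⁻¹ := by group
        _ = (c : G) * ((c : G)⁻¹ * x * (c : G)) * (c : G)⁻¹ := by rw [hyx]
        _ = x := by group
  have e2 : H₁.map (MulAut.conj ((c : G) * g)).toMonoidHom = H₂ := by
    ext x
    rw [Subgroup.mem_map]
    constructor
    · rintro ⟨y, hy, rfl⟩
      have hy' : g * y * g⁻¹ ∈ H₂ := (hmemH₂ _).2 ⟨y, hy, rfl⟩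
      have h3 := hccent _ hy'
      have : (MulAut.conj ((c : G) * g)).toMonoidHom y = g * y * g⁻¹ := by
        simp only [MulEquiv.coe_toMonoidHom, MulAut.conj_apply]
        calc (c : G) * g * y * ((c : G) * g)⁻¹ = ((c : G) * (g * y * g⁻¹)) * (c : G)⁻¹ := by group
          _ = ((g * y * g⁻¹) * (c : G)) * (c : G)⁻¹ := by rw [h3]
          _ = g * y * g⁻¹ := by group
      rw [this]; exact hy'
    · intro hx
      obtain ⟨y, hy, hyx⟩ := (hmemH₂ x).1 hx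
      refine ⟨y, hy, ?_⟩
      have h3 := hccent _ hx
      simp only [MulEquiv.coe_toMonoidHom, MulAut.conj_apply]
      calc (c : G) * g * y * ((c : G) * g)⁻¹ = ((c : G) * (g * y * g⁻¹)) * (c : G)⁻¹ := by group
        _ = ((c : G) * x) * (c : G)⁻¹ := by rw [hyx]
        _ = (x * (c : G)) * (c : G)⁻¹ := by rw [h3]
        _ = x := by group
  rw [e1, e2]

end Cfsg.Agent.Lib.Helper4.ACTYPEII
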