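import Mathlib
import Cfsg.Prelude.Def_Transfer
import Cfsg.Prelude.Def_CaseTheorems
import Cfsg.Agent.Lib.Helper53.PGroupBasics
import Cfsg.Agent.S0012
import Cfsg.Agent.S0013

/-!
Basic lemmas for P. Hall's theorem on `p`-groups of symplectic type (S3762):
cyclic subgroups, central subgroups of prime order, a criterion for extraspecial groups,
non-abelian groups of order `p ^ 3`, powers modulo a normal subgroup.
-/

set_option autoImplicit false

namespace Cfsg.Agent.Lib.Helper4.SympA

open Subgroup
open scoped commutatorElement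

variable {G : Type*} [Group G]

/-- In a finite cyclic subgroup, an element killed by `orderOf b` lies in `zpowers b`. -/
theorem cyc_mem_zpowers [Finite G] (K : Subgroup G) (hK : IsCyclic ↥K) {b e : G} (hb : b ∈ K)
    (he : e ∈ K) (hpow : e ^ orderOf b = 1) : e ∈ zpowers b := by
  classical
  haveI : Fintype ↥K := Fintype.ofFinite _
  have hob : orderOf (⟨b, hb⟩ : ↥K) = orderOf b := Subgroup.orderOf_mk b hb
  have hpos : 0 < orderOf b := orderOf_pos b
  have hle := IsCyclic.card_pow_eq_one_le (α := ↥K) hpos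
  have hsub : (Finset.univ.filter (fun x : ↥K => x ∈ zpowers (⟨b, hb⟩ : ↥K))) ⊆
      Finset.univ.filter (fun x : ↥K => x ^ orderOf b = 1) := by
    intro x hx
    simp only [Finset.mem_filter, Finset.mem_univ, true_and] at hx ⊢
    obtain ⟨k, rfl⟩ := Subgroup.mem_zpowers_iff.1 hx
    rw [← zpow_natCast, ← zpow_mul, mul_comm, zpow_mul, zpow_natCast, ← hob, pow_orderOf_eq_one,
      one_zpow]
  have hcard : (Finset.univ.filter (fun x : ↥K => x ∈ zpowers (⟨b, hb⟩ : ↥K))).card
      = orderOf b := by
    rw [← hob, ← Nat.card_zpowers, Nat.card_eq_fintype_card, Fintype.card_subtype]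
  have heq := Finset.eq_of_subset_of_card_le hsub (by rw [hcard]; exact hle)
  have hmem : (⟨e, he⟩ : ↥K) ∈ Finset.univ.filter (fun x : ↥K => x ^ orderOf b = 1) := by
    simp only [Finset.mem_filter, Finset.mem_univ, true_and]
    exact Subtype.ext (by simpa using hpow)
  rw [← heq] at hmem
  simp only [Finset.mem_filter, Finset.mem_univ, true_and] at hmem
  obtain ⟨k, hk⟩ := Subgroup.mem_zpowers_iff.1 hmem
  exact Subgroup.mem_zpowers_iff.2 ⟨k, by simpa using congrArg Subtype.val hk⟩

/-- Elements of a cyclic subgroup commute. -/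
theorem cyc_comm (K : Subgroup G) (hK : IsCyclic ↥K) {x y : G} (hx : x ∈ K) (hy : y ∈ K) :
    x * y = y * x := by
  obtain ⟨g, hg⟩ := hK.exists_generator
  obtain ⟨i, hi⟩ := Subgroup.mem_zpowers_iff.1 (hg ⟨x, hx⟩)
  obtain ⟨j, hj⟩ := Subgroup.mem_zpowers_iff.1 (hg ⟨y, hy⟩)
  have hi' : (g : G) ^ i = x := by simpa using congrArg Subtype.val hi
  have hj' : (g : G) ^ j = y := by simpa using congrArg Subtype.val hj
  rw [← hi', ← hj', ← zpow_add, ← zpow_add, add_comm]

/-- A normal subgroup of prime order of a `p`-group is central. -/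
theorem normal_card_prime_le_center [Finite G] {p : ℕ} [Fact p.Prime] (hG : IsPGroup p G)
    (N : Subgroup G) [N.Normal] (hN : Nat.card N = p) : N ≤ center G := by
  have hp : p.Prime := Fact.out
  have hne : N ≠ ⊥ := by
    intro hbot
    rw [hbot, Subgroup.card_bot] at hN
    exact hp.one_lt.ne hN
  obtain ⟨x, hxN, hx1, hxc⟩ :=
    Cfsg.Agent.Lib.Helper53.PGroupBasics.exists_center_mem_normal hG N hne
  intro z hz
  have hx1' : (⟨x, hxN⟩ : N) ≠ 1 := fun hh => hx1 (congrArg Subtype.val hh)
  have hmem : (⟨z, hz⟩ : N) ∈ Subgroup.zpowers (⟨x, hxN⟩ : N) :=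
    mem_zpowers_of_prime_card hN hx1'
  obtain ⟨k, hk⟩ := Subgroup.mem_zpowers_iff.mp hmem
  have hk' : x ^ k = z := by
    have := congrArg Subtype.val hk
    simpa using this
  rw [← hk']
  exact Subgroup.zpow_mem _ hxc k

/-- In a `p`-group, the elements of order dividing `p` of a cyclic normal subgroup are central. -/
theorem cyc_pow_central [Finite G] {p : ℕ} [Fact p.Prime] (hG : IsPGroup p G)
    (U : Subgroup G) [hUn : U.Normal] (hU : IsCyclic ↥U) {v : G} (hv : v ∈ U) (hvp : v ^ p = 1) :
    v ∈ center G := by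
  have hp : p.Prime := Fact.out
  by_cases hv1 : v = 1
  · rw [hv1]; exact one_mem _
  have hord : orderOf v = p := orderOf_eq_prime hvp hv1
  haveI : (zpowers v).Normal := by
    constructor
    intro w hw g
    obtain ⟨k, rfl⟩ := Subgroup.mem_zpowers_iff.1 hw
    have h1 : g * v ^ k * g⁻¹ = (g * v * g⁻¹) ^ k := (conj_zpow).symm
    rw [h1]
    apply Subgroup.zpow_mem
    apply cyc_mem_zpowers U hU hv (hUn.conj_mem v hv g)
    rw [hord, conj_pow, hvp, mul_one, mul_inv_cancel]
  have hcard : Nat.card (zpowers v) = p := by rw [Nat.card_zpowers, hord]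
  exact normal_card_prime_le_center hG (zpowers v) hcard (Subgroup.mem_zpowers v)

/-- A non-abelian `p`-group with centre of order `p` and elementary abelian central quotient is
extraspecial. -/
theorem mk_extraspecial {P : Type*} [Group P] [Finite P] {p : ℕ} [Fact p.Prime]
    (hP : IsPGroup p P) (hcard : Nat.card (center P) = p)
    (hcomm : ∀ x y : P, ⁅x, y⁆ ∈ center P) (hpow : ∀ x : P, x ^ p ∈ center P)
    (hna : ∃ x y : P, x * y ≠ y * x) : Cfsg.IsExtraspecial p P := by
  have hp : p.Prime := Fact.out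
  have h1 : commutator P ≤ center P := by
    rw [commutator_def, Subgroup.commutator_le]
    intro x _ y _
    exact hcomm x y
  have h2 : commutator P = center P := by
    apply Subgroup.eq_of_le_of_card_ge h1
    rw [hcard]
    have hne : commutator P ≠ ⊥ := by
      intro hbot
      obtain ⟨x, y, hxy⟩ := hna
      apply hxy
      have : ⁅x, y⁆ ∈ commutator P := by
        rw [commutator_def]
        exact Subgroup.commutator_mem_commutator (mem_top x) (mem_top y)
      rw [hbot, Subgroup.mem_bot, commutatorElement_eq_one_iff_mul_comm] at this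
      exact this
    obtain ⟨k, hk⟩ := (hP.to_subgroup (commutator P)).exists_card_eq
    rw [hk]
    have hk0 : k ≠ 0 := by
      rintro rfl
      rw [pow_zero] at hk
      exact hne ((Subgroup.card_eq_one).mp hk)
    calc p = p ^ 1 := (pow_one p).symm
      _ ≤ p ^ k := Nat.pow_le_pow_right hp.pos (by omega)
  have h3 : frattini P = center P := by
    apply le_antisymm
    · exact Cfsg.Agent.S0013.frattini_le_of_quotient_elementary p (center P) h1 hpow
    · rw [← h2]; exact (Cfsg.Agent.S0012.result p hP).1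
  exact ⟨⟨hP, h3, h2⟩, hcard⟩

/-- A group of order `p ^ k` with `k ≤ 2` is abelian. -/
theorem comm_of_card_le_sq {K : Type*} [Group K] {p : ℕ} [Fact p.Prime] {k : ℕ}
    (hcard : Nat.card K = p ^ k) (hk : k ≤ 2) (x y : K) : x * y = y * x := by
  have hp : p.Prime := Fact.out
  interval_cases k
  · rw [pow_zero] at hcard
    haveI : Subsingleton K := (Nat.card_eq_one_iff_unique.mp hcard).1
    exact Subsingleton.elim _ _
  · rw [pow_one] at hcard
    haveI : IsCyclic K := isCyclic_of_prime_card hcard
    obtain ⟨g, hg⟩ := IsCyclic.exists_generator (α := K)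
    obtain ⟨i, rfl⟩ := Subgroup.mem_zpowers_iff.1 (hg x)
    obtain ⟨j, rfl⟩ := Subgroup.mem_zpowers_iff.1 (hg y)
    rw [← zpow_add, ← zpow_add, add_comm]
  · exact IsPGroup.commutative_of_card_eq_prime_sq hcard x y

/-- Structure of a non-abelian group of order `p ^ 3`. -/
theorem card_cube_facts {K : Type*} [Group K] [Finite K] {p : ℕ} [Fact p.Prime]
    (hcard : Nat.card K = p ^ 3) (hna : ∃ x y : K, x * y ≠ y * x) :
    Nat.card (center K) = p ∧ (∀ x y : K, ⁅x, y⁆ ∈ center K) ∧ (∀ x : K, x ^ p ∈ center K) := by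
  have hp : p.Prime := Fact.out
  have hK : IsPGroup p K := IsPGroup.of_card hcard
  obtain ⟨x₀, y₀, hxy₀⟩ := hna
  obtain ⟨k, hk⟩ := (hK.to_subgroup (center K)).exists_card_eq
  have hidx : Nat.card (center K) * (center K).index = p ^ 3 := by
    rw [Subgroup.card_mul_index, hcard]
  have hk3 : k ≤ 3 := by
    have : p ^ k ∣ p ^ 3 := by rw [← hk, ← hidx]; exact dvd_mul_right _ _
    exact (Nat.pow_dvd_pow_iff_le_right hp.one_lt).1 this
  haveI : Nontrivial K := ⟨⟨x₀ * y₀, y₀ * x₀, hxy₀⟩⟩
  have hk0 : k ≠ 0 := by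
    rintro rfl
    rw [pow_zero] at hk
    haveI := hK.center_nontrivial
    have := (Subgroup.card_eq_one).mp hk
    exact (Subgroup.nontrivial_iff_ne_bot _).1 inferInstance this
  have hnotcyc : ¬ IsCyclic (K ⧸ center K) := by
    intro h
    exact hxy₀ (commutative_of_cyclic_center_quotient (QuotientGroup.mk' (center K))
      (by rw [QuotientGroup.ker_mk']) x₀ y₀)
  have hk1 : k = 1 := by
    by_contra hne
    have hk23 : k = 2 ∨ k = 3 := by omega
    rcases hk23 with rfl | rfl
    · apply hnotcyc
      have hi : (center K).index = p := by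
        have h1 : p ^ 2 * (center K).index = p ^ 2 * p := by
          have h0 := hidx
          rw [hk] at h0
          rw [h0]; ring
        exact Nat.eq_of_mul_eq_mul_left (pow_pos hp.pos 2) h1
      have hq : Nat.card (K ⧸ center K) = p := by rw [← hi]; rfl
      exact isCyclic_of_prime_card hq
    · have htop : center K = ⊤ := (Subgroup.card_eq_iff_eq_top _).1 (by rw [hk, hcard])
      apply hxy₀
      have hx : x₀ ∈ center K := by rw [htop]; exact mem_top _
      exact ((Subgroup.mem_center_iff.1 hx) y₀).symm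
  subst hk1
  rw [pow_one] at hk
  have hq : Nat.card (K ⧸ center K) = p ^ 2 := by
    have hi : (center K).index = p ^ 2 := by
      have h1 : p * (center K).index = p * p ^ 2 := by
        have h0 := hidx
        rw [hk] at h0
        rw [h0]; ring
      exact Nat.eq_of_mul_eq_mul_left hp.pos h1
    rw [← hi]; rfl
  refine ⟨hk, ?_, ?_⟩
  · intro x y
    rw [← QuotientGroup.eq_one_iff]
    have h := IsPGroup.commutative_of_card_eq_prime_sq hq (QuotientGroup.mk (s := center K) x)
      (QuotientGroup.mk y)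
    have h2 : ⁅(QuotientGroup.mk x : K ⧸ center K), QuotientGroup.mk y⁆ = 1 :=
      commutatorElement_eq_one_iff_mul_comm.2 h
    exact h2
  · intro x
    rw [← QuotientGroup.eq_one_iff, QuotientGroup.mk_pow]
    have hd : orderOf (QuotientGroup.mk (s := center K) x) ∣ p ^ 2 := by
      rw [← hq]; exact orderOf_dvd_natCard _
    obtain ⟨j, hj, hj2⟩ := (Nat.dvd_prime_pow hp).1 hd
    have hj1 : j ≤ 1 := by
      by_contra hcon
      have : j = 2 := by omega
      subst this
      exact hnotcyc (isCyclic_of_orderOf_eq_card _ (by rw [hj2, hq]))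
    have : orderOf (QuotientGroup.mk (s := center K) x) ∣ p := by
      rw [hj2]
      calc p ^ j ∣ p ^ 1 := Nat.pow_dvd_pow p hj1
        _ = p := pow_one p
    exact orderOf_dvd_iff_pow_eq_one.1 this

/-- A non-abelian group of order `p ^ 3` is extraspecial. -/
theorem extraspecial_of_card_cube {K : Type*} [Group K] [Finite K] {p : ℕ} [Fact p.Prime]
    (hcard : Nat.card K = p ^ 3) (hna : ∃ x y : K, x * y ≠ y * x) : Cfsg.IsExtraspecial p K := by
  obtain ⟨h1, h2, h3⟩ := card_cube_facts hcard hna
  exact mk_extraspecial (IsPGroup.of_card hcard) h1 h2 h3 hna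

/-- Commutators in a normal subgroup give commuting images in the quotient. -/
theorem mk_commute_of_comm_mem (Z : Subgroup G) [Z.Normal] {a b : G} (hc : ⁅a, b⁆ ∈ Z) :
    Commute (QuotientGroup.mk (s := Z) a) (QuotientGroup.mk b) := by
  have h1 : (QuotientGroup.mk (s := Z) ⁅a, b⁆ : G ⧸ Z) = 1 := (QuotientGroup.eq_one_iff _).2 hc
  have h2 : ⁅(QuotientGroup.mk a : G ⧸ Z), (QuotientGroup.mk b : G ⧸ Z)⁆ = 1 := by
    rw [← h1]; rfl
  exact commutatorElement_eq_one_iff_commute.1 h2

theorem comm_mem_of_mk_commute (Z : Subgroup G) [Z.Normal] {a b : G}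
    (h : Commute (QuotientGroup.mk (s := Z) a) (QuotientGroup.mk b)) : ⁅a, b⁆ ∈ Z := by
  rw [← QuotientGroup.eq_one_iff]
  have h2 : ⁅(QuotientGroup.mk a : G ⧸ Z), (QuotientGroup.mk b : G ⧸ Z)⁆ = 1 :=
    commutatorElement_eq_one_iff_commute.2 h
  exact h2

/-- If `a ^ n = b ^ n` and `a`, `b` commute modulo `Z`, then `(a * b⁻¹) ^ n ∈ Z`. -/
theorem pow_mul_inv_mem (Z : Subgroup G) [Z.Normal] {a b : G} (n : ℕ) (hab : a ^ n = b ^ n)
    (hc : ⁅a, b⁆ ∈ Z) : (a * b⁻¹) ^ n ∈ Z := by
  rw [← QuotientGroup.eq_one_iff]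
  have hcomm := mk_commute_of_comm_mem Z hc
  have h : (QuotientGroup.mk ((a * b⁻¹) ^ n) : G ⧸ Z)
      = (QuotientGroup.mk a) ^ n * ((QuotientGroup.mk b) ^ n)⁻¹ := by
    rw [QuotientGroup.mk_pow, QuotientGroup.mk_mul, QuotientGroup.mk_inv,
      (hcomm.inv_right).mul_pow, inv_pow]
  rw [h, ← QuotientGroup.mk_pow, ← QuotientGroup.mk_pow, hab, mul_inv_cancel]

/-- Powers of a commutator which commutes with the left entry. -/
theorem comm_pow_left {x y : G} (h : Commute ⁅x, y⁆ x) (k : ℕ) : ⁅x ^ k, y⁆ = ⁅x, y⁆ ^ k := by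
  induction k with
  | zero => simp
  | succ k ih =>
    have h1 : ⁅x ^ (k + 1), y⁆ = x * ⁅x ^ k, y⁆ * x⁻¹ * ⁅x, y⁆ := by
      simp only [commutatorElement_def, pow_succ']
      group
    rw [h1, ih, pow_succ]
    have h2 : x * ⁅x, y⁆ ^ k * x⁻¹ = ⁅x, y⁆ ^ k := by
      have := (h.pow_left k).eq
      rw [mul_inv_eq_iff_eq_mul]
      exact this.symm
    rw [h2]

/-- Membership in the centre of a subgroup. -/
theorem mem_center_subtype {E : Subgroup G} {x : ↥E} :
    x ∈ center ↥E ↔ (x : G) ∈ centralizer (E : Set G) := by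
  rw [Subgroup.mem_center_iff, Subgroup.mem_centralizer_iff]
  constructor
  · intro h g hg
    exact congrArg Subtype.val (h ⟨g, hg⟩)
  · intro h g
    exact Subtype.ext (h g g.2)

theorem map_center_subtype (E : Subgroup G) :
    (center ↥E).map E.subtype = E ⊓ centralizer (E : Set G) := by
  ext x
  rw [Subgroup.mem_map, Subgroup.mem_inf]
  constructor
  · rintro ⟨y, hy, rfl⟩
    exact ⟨y.2, mem_center_subtype.1 hy⟩
  · rintro ⟨hxE, hxC⟩
    exact ⟨⟨x, hxE⟩, mem_center_subtype.2 hxC, rfl⟩

/-- Characteristic subgroups are mapped into themselves by automorphisms. -/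
theorem char_mem (H : Subgroup G) [hH : H.Characteristic] (φ : G ≃* G) {x : G} (hx : x ∈ H) :
    φ x ∈ H := by
  have := hH.fixed φ
  rw [← this] at hx
  exact hx

/-- The centralizer of an automorphism-invariant set is characteristic. -/
theorem char_centralizer_of_invariant (S : Set G) (hS : ∀ φ : G ≃* G, ∀ x ∈ S, φ x ∈ S) :
    (centralizer S).Characteristic := by
  rw [Subgroup.characteristic_iff_map_le]
  intro φ
  rintro _ ⟨y, hy, rfl⟩
  rw [Subgroup.mem_centralizer_iff]
  intro s hs
  have h1 := (Subgroup.mem_centralizer_iff.1 hy) (φ.symm s) (hS φ.symm s hs)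
  have h2 := congrArg φ h1
  simpa using h2

/-- Quasi-dihedral groups are invariant under isomorphism. -/
theorem isQuasiDihedral_of_mulEquiv {S S' : Type*} [Group S] [Group S'] (e : S ≃* S')
    (h : Cfsg.IsQuasiDihedral S) : Cfsg.IsQuasiDihedral S' := by
  obtain ⟨n, hn, hcard, x, y, hx, hy, hxy⟩ := h
  refine ⟨n, hn, by rw [← hcard]; exact Nat.card_congr e.symm.toEquiv, e x, e y,
    by rw [MulEquiv.orderOf_eq]; exact hx, by rw [MulEquiv.orderOf_eq]; exact hy, ?_⟩
  rw [← map_inv, ← map_mul, ← map_mul, hxy, map_pow]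

/-- Being extraspecial is invariant under isomorphism. -/
theorem isExtraspecial_of_mulEquiv {P P' : Type*} [Group P] [Group P'] {p : ℕ} (e : P ≃* P')
    (h : Cfsg.IsExtraspecial p P) : Cfsg.IsExtraspecial p P' := by
  obtain ⟨⟨hp, hfr, hcomm⟩, hcard⟩ := h
  have hcen : ∀ x : P', x ∈ Subgroup.center P' ↔ e.symm x ∈ Subgroup.center P := by
    intro x
    rw [Subgroup.mem_center_iff, Subgroup.mem_center_iff]
    constructor
    · intro hx g
      have := congrArg e.symm (hx (e g))
      simpa using this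
    · intro hx g
      have := congrArg e (hx (e.symm g))
      simpa using this
  have hfrat : ∀ x : P', x ∈ frattini P' ↔ e.symm x ∈ frattini P := by
    intro x
    constructor
    · intro hx
      exact frattini_le_comap_frattini_of_surjective (φ := e.symm.toMonoidHom) e.symm.surjective hx
    · intro hx
      have := frattini_le_comap_frattini_of_surjective (φ := e.toMonoidHom) e.surjective hx
      simpa using this
  have hmap : (Subgroup.center P).map e.toMonoidHom = Subgroup.center P' := by
    ext x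
    rw [hcen]
    constructor
    · rintro ⟨y, hy, rfl⟩
      simpa using hy
    · intro hx
      exact ⟨e.symm x, hx, by simp⟩
  refine ⟨⟨hp.of_equiv e, ?_, ?_⟩, ?_⟩
  · ext x
    rw [hfrat, hcen, hfr]
  · have h1 : commutator P' = (commutator P).map e.toMonoidHom := by
      rw [commutator_def, commutator_def, Subgroup.map_commutator,
        Subgroup.map_top_of_surjective _ e.surjective]
    rw [h1, hcomm, hmap]
  · rw [← hmap, Subgroup.card_map_of_injective e.injective]
    exact hcard

end Cfsg.Agent.Lib.Helper4.SympA
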