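import Mathlib
import Cfsg.Agent.Lib.Helper4.SympA
import Cfsg.Agent.Lib.Helper54.CyclicNormal
import Cfsg.Agent.S3761

/-!
P. Hall's theorem on `p`-groups of symplectic type (S3762): analysis of a subgroup `R`
containing a self-centralizing cyclic characteristic subgroup `U`.
-/

set_option autoImplicit false

namespace Cfsg.Agent.Lib.Helper4.SympB

open Subgroup
open scoped commutatorElement
open Cfsg.Agent.Lib.Helper4.SympA

variable {G : Type*} [Group G]

/-- The modular case contradicts symplectic type. -/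
theorem modular_contra [Finite G] {p : ℕ} [Fact p.Prime] (hG : IsPGroup p G)
    (hsymp : ∀ A : Subgroup G, A.Characteristic → IsMulCommutative A → IsCyclic A)
    (U R₁ : Subgroup G) [hUn : U.Normal] (hUc : IsCyclic ↥U) (n : ℕ) (hUcard : Nat.card U = p ^ n)
    (hn : 3 ≤ n) (hR₁ : R₁.Characteristic) (hUR₁ : U ≤ R₁)
    (hself : ∀ y ∈ R₁, (∀ u ∈ U, u * y = y * u) → y ∈ U)
    (y : G) (hyR : y ∈ R₁) (hyU : y ∉ U) (hy : ∀ u ∈ U, y * u ^ p = u ^ p * y) : False := by
  classical
  have hp : p.Prime := Fact.out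
  obtain ⟨g, hg⟩ := hUc.exists_generator
  have hUa : U = Subgroup.zpowers (g : G) := by
    apply le_antisymm
    · intro x hx
      obtain ⟨i, hi⟩ := Subgroup.mem_zpowers_iff.1 (hg ⟨x, hx⟩)
      rw [Subgroup.mem_zpowers_iff]; exact ⟨i, by simpa using congrArg Subtype.val hi⟩
    · exact Subgroup.zpowers_le.2 g.2
  obtain ⟨a, ha⟩ : ∃ a : G, a = (g : G) := ⟨_, rfl⟩
  rw [← ha] at hUa
  have haU : a ∈ U := by rw [hUa]; exact Subgroup.mem_zpowers a
  have hord : orderOf a = p ^ n := by rw [← hUcard, hUa, Nat.card_zpowers]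
  obtain ⟨n', rfl⟩ : ∃ n', n = n' + 1 := ⟨n - 1, by omega⟩
  -- work inside `R₁`
  have hzp : Subgroup.zpowers (⟨a, hUR₁ haU⟩ : ↥R₁) = U.subgroupOf R₁ := by
    ext x
    rw [Subgroup.mem_subgroupOf, hUa, Subgroup.mem_zpowers_iff, Subgroup.mem_zpowers_iff]
    constructor
    · rintro ⟨k, rfl⟩
      exact ⟨k, by simp⟩
    · rintro ⟨k, hk⟩
      exact ⟨k, Subtype.ext (by simpa using hk)⟩
  have hN' : (Subgroup.zpowers (⟨a, hUR₁ haU⟩ : ↥R₁)).Normal := by
    rw [hzp]; exact hUn.subgroupOf R₁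
  have hord' : orderOf (⟨a, hUR₁ haU⟩ : ↥R₁) = p ^ (n' + 1) := by
    rw [Subgroup.orderOf_mk]; exact hord
  have hC' : ∀ x : ↥R₁, Commute x (⟨a, hUR₁ haU⟩ : ↥R₁) →
      x ∈ Subgroup.zpowers (⟨a, hUR₁ haU⟩ : ↥R₁) := by
    intro x hx
    rw [hzp, Subgroup.mem_subgroupOf]
    apply hself x x.2
    intro u hu
    rw [hUa] at hu
    obtain ⟨k, rfl⟩ := Subgroup.mem_zpowers_iff.1 hu
    have hx' : Commute (x : G) a := congrArg Subtype.val hx.eq
    exact ((hx'.zpow_right k).eq).symm
  have hyA : (⟨y, hyR⟩ : ↥R₁) ∉ Subgroup.zpowers (⟨a, hUR₁ haU⟩ : ↥R₁) := by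
    rw [hzp, Subgroup.mem_subgroupOf]; exact hyU
  have hyc : Commute (⟨y, hyR⟩ : ↥R₁) ((⟨a, hUR₁ haU⟩ : ↥R₁) ^ p) :=
    Subtype.ext (hy a haU)
  obtain ⟨E₀, hE, hcard, hEn, hEc, hP3, -⟩ :=
    Cfsg.Agent.Lib.Helper54.CyclicNormal.modular (hG.to_subgroup R₁) hord' hN' hC'
      (Or.inr (by omega)) hyA hyc
  haveI hE₀char : E₀.Characteristic := by
    rw [Subgroup.characteristic_iff_map_le]
    intro φ
    apply hP3
    · exact hEn.map _ φ.surjective
    · rintro _ ⟨w, hw, rfl⟩
      have := ((hE w).1 hw).2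
      rw [← map_pow, this, map_one]
  haveI := hR₁
  have hT : (E₀.map R₁.subtype).Characteristic := inferInstance
  haveI := hEc
  have hTc : IsMulCommutative ↥(E₀.map R₁.subtype) := inferInstance
  have hcyc := hsymp _ hT hTc
  obtain ⟨t, ht⟩ := hcyc.exists_generator
  have htp : t ^ p = 1 := by
    obtain ⟨w, hw, hwt⟩ := t.2
    have h1 := ((hE w).1 hw).2
    apply Subtype.ext
    rw [Subgroup.coe_pow, ← hwt, Subgroup.coe_one]
    have := congrArg Subtype.val h1
    simpa using this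
  have hle : Nat.card ↥(E₀.map R₁.subtype) ≤ p := by
    rw [← orderOf_eq_card_of_forall_mem_zpowers ht]
    exact orderOf_le_of_pow_eq_one hp.pos htp
  have hc2 : Nat.card ↥(E₀.map R₁.subtype) = p ^ 2 := by
    rw [Subgroup.card_map_of_injective R₁.subtype_injective]; exact hcard
  rw [hc2] at hle
  have := hp.one_lt
  nlinarith

/-- Analysis of a subgroup `R` in which the cyclic subgroup `U` is self-centralizing. -/
theorem r_analysis [Finite G] {p : ℕ} [Fact p.Prime] (hG : IsPGroup p G)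
    (hsymp : ∀ A : Subgroup G, A.Characteristic → IsMulCommutative A → IsCyclic A)
    (U R R₁ : Subgroup G) [hUn : U.Normal] (hUc : IsCyclic ↥U) (n : ℕ)
    (hUcard : Nat.card U = p ^ n)
    (hUR : U ≤ R) (hself : ∀ y ∈ R, (∀ u ∈ U, u * y = y * u) → y ∈ U)
    (hR₁ : R₁.Characteristic) (hUR₁ : U ≤ R₁) (hR₁R : R₁ ≤ R)
    (hmod : 3 ≤ n → ∀ y ∈ R, (∀ u ∈ U, y * u ^ p = u ^ p * y) → y ∈ R₁) :
    IsCyclic ↥R ∨
    (p = 2 ∧ 16 ≤ Nat.card R ∧ ((∃ m : ℕ, Nonempty (↥R ≃* DihedralGroup m)) ∨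
      (∃ m : ℕ, Nonempty (↥R ≃* QuaternionGroup m)) ∨ Cfsg.IsQuasiDihedral ↥R)) ∨
    (Nat.card R = p ^ 3 ∧ ∃ x ∈ R, ∃ y ∈ R, x * y ≠ y * x) := by
  classical
  have hp : p.Prime := Fact.out
  by_cases hab : ∀ x ∈ R, ∀ y ∈ R, x * y = y * x
  · left
    have hRU : R = U :=
      le_antisymm (fun y hy => hself y hy (fun u hu => hab u (hUR hu) y hy)) hUR
    rw [hRU]; exact hUc
  push Not at hab
  right
  have hRp : IsPGroup p ↥R := hG.to_subgroup R
  have hna : ¬ IsMulCommutative ↥R := by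
    intro h
    obtain ⟨x, hx, y, hy, hxy⟩ := hab
    apply hxy
    have := h.is_comm.comm (⟨x, hx⟩ : ↥R) ⟨y, hy⟩
    exact congrArg Subtype.val this
  have hsmall : ∀ k : ℕ, Nat.card R = p ^ k → 3 ≤ k := by
    intro k hk
    by_contra hk3
    obtain ⟨x, hx, y, hy, hxy⟩ := hab
    apply hxy
    have := comm_of_card_le_sq (K := ↥R) hk (by omega) ⟨x, hx⟩ ⟨y, hy⟩
    exact congrArg Subtype.val this
  haveI hU'n : (U.subgroupOf R).Normal := hUn.subgroupOf R
  have eU : ↥(U.subgroupOf R) ≃* ↥U := Subgroup.subgroupOfEquivOfLe hUR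
  have hU'c : IsCyclic ↥(U.subgroupOf R) := by
    haveI := hUc
    exact isCyclic_of_surjective eU.symm eU.symm.surjective
  have hU'card : Nat.card (U.subgroupOf R) = p ^ n := by
    rw [Nat.card_congr eU.toEquiv, hUcard]
  have hC' : Subgroup.centralizer ((U.subgroupOf R : Subgroup ↥R) : Set ↥R) = U.subgroupOf R := by
    ext y
    rw [Subgroup.mem_centralizer_iff, Subgroup.mem_subgroupOf]
    constructor
    · intro h
      apply hself y y.2
      intro u hu
      have := h ⟨u, hUR hu⟩ (by rw [SetLike.mem_coe, Subgroup.mem_subgroupOf]; exact hu)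
      exact congrArg Subtype.val this
    · intro hy u hu
      rw [SetLike.mem_coe, Subgroup.mem_subgroupOf] at hu
      exact Subtype.ext (cyc_comm U hUc hu hy)
  rcases Cfsg.Agent.S3761.result hRp hna (U.subgroupOf R) hU'c n hU'card hC' with
    ⟨hp2, hcard, hshape⟩ | ⟨hrel, -, -, -⟩
  · by_cases h16 : 16 ≤ Nat.card R
    · left; exact ⟨hp2, h16, hshape⟩
    · right
      refine ⟨?_, hab⟩
      subst hp2
      have h3 := hsmall (n + 1) hcard
      have h4 : n + 1 ≤ 3 := by
        by_contra hcon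
        apply h16
        rw [hcard]
        calc 16 = 2 ^ 4 := by norm_num
          _ ≤ 2 ^ (n + 1) := Nat.pow_le_pow_right (by norm_num) (by omega)
      have h5 : n + 1 = 3 := by omega
      rw [hcard, h5]
  · by_cases hn3 : 3 ≤ n
    · exfalso
      have hnle : ¬ (Subgroup.centralizer
          ((Cfsg.powerClosure p 1 (U.subgroupOf R) : Subgroup ↥R) : Set ↥R)) ≤ U.subgroupOf R := by
        intro hle
        have h1 := Subgroup.relIndex_eq_one.2 hle
        rw [hrel] at h1
        exact hp.one_lt.ne' h1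
      obtain ⟨y, hyM, hyU⟩ := SetLike.not_le_iff_exists.1 hnle
      have hyU' : (y : G) ∉ U := by
        rw [Subgroup.mem_subgroupOf] at hyU; exact hyU
      have hyc : ∀ u ∈ U, (y : G) * u ^ p = u ^ p * (y : G) := by
        intro u hu
        have hmem : (⟨u, hUR hu⟩ : ↥R) ^ p ∈ Cfsg.powerClosure p 1 (U.subgroupOf R) := by
          unfold Cfsg.powerClosure
          apply Subgroup.subset_closure
          exact ⟨⟨u, hUR hu⟩, by rw [Subgroup.mem_subgroupOf]; exact hu, by rw [pow_one]⟩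
        have := (Subgroup.mem_centralizer_iff.1 hyM) _ hmem
        exact (congrArg Subtype.val this).symm
      have hyR₁ : (y : G) ∈ R₁ := hmod hn3 y y.2 hyc
      exact modular_contra hG hsymp U R₁ hUc n hUcard hn3 hR₁ hUR₁
        (fun w hw h => hself w (hR₁R hw) h) y hyR₁ hyU' hyc
    · right
      refine ⟨?_, hab⟩
      have hcen : Subgroup.centralizer
          ((Cfsg.powerClosure p 1 (U.subgroupOf R) : Subgroup ↥R) : Set ↥R) = ⊤ := by
        unfold Cfsg.powerClosure
        rw [Subgroup.centralizer_closure, eq_top_iff]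
        intro y _
        rw [Subgroup.mem_centralizer_iff]
        rintro _ ⟨x, hx, rfl⟩
        rw [Subgroup.mem_subgroupOf] at hx
        rw [pow_one]
        have hxp : ((x : G) ^ p) ^ p = 1 := by
          rw [← pow_mul]
          have h1 : orderOf (x : G) ∣ p ^ n := by
            rw [← hUcard]
            have := orderOf_dvd_natCard (⟨(x : G), hx⟩ : ↥U)
            rwa [Subgroup.orderOf_mk] at this
          have h2 : p ^ n ∣ p * p := by
            calc p ^ n ∣ p ^ 2 := Nat.pow_dvd_pow p (by omega)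
              _ = p * p := by ring
          exact orderOf_dvd_iff_pow_eq_one.1 (h1.trans h2)
        have hcen := cyc_pow_central hG U hUc (U.pow_mem hx p) hxp
        apply Subtype.ext
        have := (Subgroup.mem_center_iff.1 hcen) (y : G)
        simpa using this.symm
      rw [hcen, Subgroup.relIndex_top_right] at hrel
      have hcardR : Nat.card R = p ^ (n + 1) := by
        rw [← Subgroup.card_mul_index (U.subgroupOf R), hU'card, hrel, pow_succ]
      have h3 := hsmall (n + 1) hcardR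
      have h5 : n + 1 = 3 := by omega
      rw [hcardR, h5]

end Cfsg.Agent.Lib.Helper4.SympB
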