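import Mathlib
import Cfsg.Agent.Lib.Helper4.SympB
import Cfsg.Agent.Lib.Helper34.Critical
import Cfsg.Agent.S0110

/-!
P. Hall's theorem on `p`-groups of symplectic type (S3762): main argument.
-/

set_option autoImplicit false

namespace Cfsg.Agent.Lib.Helper4.SympC

open Subgroup
open scoped commutatorElement
open Cfsg.Agent.Lib.Helper4.SympA Cfsg.Agent.Lib.Helper4.SympB

/-- The conclusion of P. Hall's theorem. -/
def Concl (p : ℕ) (G : Type*) [Group G] : Prop :=
  ∃ E R : Subgroup G, (∀ e ∈ E, ∀ r ∈ R, e * r = r * e) ∧ E ⊔ R = ⊤ ∧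
    (E = ⊥ ∨ Cfsg.IsExtraspecial p ↥E) ∧
    (IsCyclic R ∨ (p = 2 ∧ 16 ≤ Nat.card R ∧ ((∃ m : ℕ, Nonempty (↥R ≃* DihedralGroup m)) ∨
      (∃ m : ℕ, Nonempty (↥R ≃* QuaternionGroup m)) ∨ Cfsg.IsQuasiDihedral ↥R)))

variable {G : Type*} [Group G]

theorem concl_of_extraspecial {p : ℕ} (h : Cfsg.IsExtraspecial p G) : Concl p G := by
  refine ⟨⊤, ⊥, ?_, sup_bot_eq _,
    Or.inr (isExtraspecial_of_mulEquiv Subgroup.topEquiv.symm h), Or.inl inferInstance⟩
  intro e _ r hr
  rw [Subgroup.mem_bot] at hr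
  rw [hr, mul_one, one_mul]

/-- The case of an abelian critical subgroup. -/
theorem case_a [Finite G] {p : ℕ} [Fact p.Prime] (hG : IsPGroup p G)
    (hsymp : ∀ A : Subgroup G, A.Characteristic → IsMulCommutative A → IsCyclic A)
    (U : Subgroup G) (hUchar : U.Characteristic) (hUcyc : IsCyclic ↥U)
    (hCU : ∀ y : G, (∀ u ∈ U, u * y = y * u) → y ∈ U) : Concl p G := by
  classical
  haveI := hUchar
  obtain ⟨n, hUcard⟩ := (hG.to_subgroup U).exists_card_eq
  obtain ⟨R₁, hR₁def⟩ : ∃ R₁ : Subgroup G,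
      R₁ = centralizer ((fun u : G => u ^ p) '' (U : Set G)) := ⟨_, rfl⟩
  have hR₁ : R₁.Characteristic := by
    rw [hR₁def]
    apply char_centralizer_of_invariant
    rintro φ _ ⟨u, hu, rfl⟩
    exact ⟨φ u, char_mem U φ hu, by simp⟩
  have hUR₁ : U ≤ R₁ := by
    intro u hu
    rw [hR₁def, mem_centralizer_iff]
    rintro _ ⟨v, hv, rfl⟩
    exact cyc_comm U hUcyc (U.pow_mem hv p) hu
  rcases r_analysis hG hsymp U ⊤ R₁ hUcyc n hUcard le_top (fun y _ h => hCU y h) hR₁ hUR₁ le_top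
      (fun _ y _ h => by
        rw [hR₁def, mem_centralizer_iff]
        rintro _ ⟨v, hv, rfl⟩
        exact (h v hv).symm) with h | ⟨hp2, h16, hshape⟩ | ⟨hcard, x, -, y, -, hxy⟩
  · exact ⟨⊥, ⊤, fun e he r _ => by rw [mem_bot] at he; rw [he, one_mul, mul_one],
      bot_sup_eq _, Or.inl rfl, Or.inl h⟩
  · exact ⟨⊥, ⊤, fun e he r _ => by rw [mem_bot] at he; rw [he, one_mul, mul_one],
      bot_sup_eq _, Or.inl rfl, Or.inr ⟨hp2, h16, hshape⟩⟩
  · apply concl_of_extraspecial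
    have hcardG : Nat.card G = p ^ 3 := by rw [← hcard, Subgroup.card_top]
    exact extraspecial_of_card_cube hcardG ⟨x, y, hxy⟩

/-- The case of a non-abelian critical subgroup. -/
theorem case_b [Finite G] {p : ℕ} [Fact p.Prime] (hG : IsPGroup p G)
    (hsymp : ∀ A : Subgroup G, A.Characteristic → IsMulCommutative A → IsCyclic A)
    (C U : Subgroup G) (hCchar : C.Characteristic) (hUdef : U = centralizer (C : Set G))
    (hCpow : ∀ a ∈ C, a ^ p ∈ U)
    (hCcomm : ⁅C, C⁆ ≤ U)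
    (hGC : ∀ g : G, ∀ x ∈ C, ⁅g, x⁆ ∈ U)
    (hCC : U ≤ C)
    (hUcyc : IsCyclic ↥U)
    (hCab : ¬ C ≤ U) : Concl p G := by
  classical
  have hp : p.Prime := Fact.out
  haveI := hCchar
  haveI hUchar : U.Characteristic := by rw [hUdef]; infer_instance
  haveI hUn : U.Normal := inferInstance
  obtain ⟨n, hUcard⟩ := (hG.to_subgroup U).exists_card_eq
  have hUC : ∀ u ∈ U, ∀ c ∈ C, c * u = u * c := by
    intro u hu c hc
    rw [hUdef] at hu
    exact (mem_centralizer_iff.1 hu) c hc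
  obtain ⟨c₀, hc₀C, hc₀U⟩ := SetLike.not_le_iff_exists.1 hCab
  obtain ⟨Z, hZdef⟩ : ∃ Z : Subgroup G, Z = ⁅C, C⁆ := ⟨_, rfl⟩
  haveI hZchar : Z.Characteristic := by rw [hZdef]; infer_instance
  haveI hZn : Z.Normal := inferInstance
  have hZU : Z ≤ U := by rw [hZdef]; exact hCcomm
  have hZC : Z ≤ C := hZU.trans hCC
  have hcomZ : ∀ x ∈ C, ∀ y ∈ C, ⁅x, y⁆ ∈ Z := fun x hx y hy => by
    rw [hZdef]; exact commutator_mem_commutator hx hy
  have hcomp : ∀ x ∈ C, ∀ y ∈ C, ⁅x, y⁆ ^ p = 1 := by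
    intro x hx y hy
    have hc : Commute ⁅x, y⁆ x := (hUC _ (hZU (hcomZ x hx y hy)) x hx).symm
    rw [← comm_pow_left hc p, commutatorElement_eq_one_iff_mul_comm]
    exact (hUC _ (hCpow x hx) y hy).symm
  have hZexp : ∀ z ∈ Z, z ^ p = 1 := by
    intro z hz
    rw [hZdef, Subgroup.commutator_def] at hz
    induction hz using Subgroup.closure_induction with
    | mem w hw =>
      obtain ⟨x, hx, y, hy, rfl⟩ := hw
      exact hcomp x hx y hy
    | one => exact one_pow p
    | mul a b ha hb iha ihb =>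
      have haZ : a ∈ Z := by rw [hZdef, Subgroup.commutator_def]; exact ha
      have hbZ : b ∈ Z := by rw [hZdef, Subgroup.commutator_def]; exact hb
      have hab : Commute a b := cyc_comm U hUcyc (hZU haZ) (hZU hbZ)
      rw [hab.mul_pow, iha, ihb, one_mul]
    | inv a ha iha => rw [inv_pow, iha, inv_one]
  obtain ⟨z₀, hz₀Z, hz₀1⟩ : ∃ z₀ ∈ Z, z₀ ≠ 1 := by
    have h1 : ¬ ∀ c ∈ C, c * c₀ = c₀ * c := fun h => hc₀U (by
      rw [hUdef]; exact mem_centralizer_iff.2 h)
    push Not at h1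
    obtain ⟨c, hc, hcc⟩ := h1
    refine ⟨⁅c, c₀⁆, hcomZ c hc c₀ hc₀C, ?_⟩
    rw [Ne, commutatorElement_eq_one_iff_mul_comm]; exact hcc
  have hz₀ord : orderOf z₀ = p := orderOf_eq_prime (hZexp z₀ hz₀Z) hz₀1
  have hB2 : ∀ v ∈ U, v ^ p = 1 → v ∈ Z := fun v hv hvp =>
    (zpowers_le.2 hz₀Z) (cyc_mem_zpowers U hUcyc (hZU hz₀Z) hv (by rw [hz₀ord]; exact hvp))
  have hZeq : Z = zpowers z₀ :=
    le_antisymm (fun z hz => cyc_mem_zpowers U hUcyc (hZU hz₀Z) (hZU hz)
      (by rw [hz₀ord]; exact hZexp z hz)) (zpowers_le.2 hz₀Z)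
  have hZcard : Nat.card Z = p := by rw [hZeq, Nat.card_zpowers, hz₀ord]
  have hZcen : Z ≤ center G := normal_card_prime_le_center hG Z hZcard
  -- the subgroup `E`
  have hfin : ({X : Subgroup G | Z ≤ X ∧ X ≤ C ∧ X ⊓ U = Z} : Set (Subgroup G)).Finite :=
    Set.toFinite _
  obtain ⟨E, hE⟩ := hfin.exists_maximal ⟨Z, le_rfl, hZC, inf_eq_left.2 hZU⟩
  obtain ⟨⟨hZE, hEC, hEU⟩, hmax⟩ := hE
  have hEpow : ∀ e ∈ E, e ^ p ∈ Z := fun e he => by
    rw [← hEU]; exact mem_inf.2 ⟨E.pow_mem he p, hCpow e (hEC he)⟩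
  have hGE : ∀ g : G, ∀ e ∈ E, ⁅g, e⁆ ∈ Z := by
    intro g e he
    have hw : ⁅g, e⁆ ∈ U := hGC g e (hEC he)
    apply hB2 _ hw
    have h1 : g * e * g⁻¹ = ⁅g, e⁆ * e := by rw [commutatorElement_def]; group
    have h2 : (g * e * g⁻¹) ^ p = e ^ p := by
      rw [conj_pow]
      have := (mem_center_iff.1 (hZcen (hEpow e he))) g
      rw [this, mul_inv_cancel_right]
    have h3 : (⁅g, e⁆ * e) ^ p = ⁅g, e⁆ ^ p * e ^ p := by
      have hc : Commute ⁅g, e⁆ e := (hUC _ hw e (hEC he)).symm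
      exact hc.mul_pow p
    rw [h1, h3] at h2
    exact mul_right_cancel (h2.trans (one_mul _).symm)
  haveI hEn : E.Normal := ⟨fun e he g => by
    have h1 : g * e * g⁻¹ = ⁅g, e⁆ * e := by rw [commutatorElement_def]; group
    rw [h1]; exact E.mul_mem (hZE (hGE g e he)) he⟩
  -- a generator of `U`
  obtain ⟨g₀, hg₀⟩ := hUcyc.exists_generator
  have hUa : ∀ u ∈ U, u ∈ zpowers (g₀ : G) := by
    intro x hx
    obtain ⟨i, hi⟩ := mem_zpowers_iff.1 (hg₀ ⟨x, hx⟩)
    rw [mem_zpowers_iff]; exact ⟨i, by simpa using congrArg Subtype.val hi⟩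
  obtain ⟨a, ha⟩ : ∃ a : G, a = (g₀ : G) := ⟨_, rfl⟩
  rw [← ha] at hUa
  have haU : a ∈ U := by rw [ha]; exact g₀.2
  have hUeq : U = zpowers a := le_antisymm hUa (zpowers_le.2 haU)
  have hord : orderOf a = p ^ n := by rw [← hUcard, hUeq, Nat.card_zpowers]
  have hs1 : ∀ y ∈ C, y ^ p ∈ Z → y ∈ E ⊔ U := by
    intro y hy hyp
    by_contra hyn
    have hX : Z ≤ E ⊔ zpowers y ∧ E ⊔ zpowers y ≤ C ∧ (E ⊔ zpowers y) ⊓ U = Z := by
      refine ⟨le_sup_of_le_left hZE, sup_le hEC (zpowers_le.2 hy),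
        le_antisymm ?_ (le_inf (le_sup_of_le_left hZE) hZU)⟩
      intro v hv
      obtain ⟨hv1, hv2⟩ := mem_inf.1 hv
      obtain ⟨e, he, m, hm, rfl⟩ := Subgroup.mem_sup_of_normal_left.1 hv1
      obtain ⟨i, rfl⟩ := mem_zpowers_iff.1 hm
      by_cases hpi : (p : ℤ) ∣ i
      · obtain ⟨j, rfl⟩ := hpi
        have hyi : y ^ ((p : ℤ) * j) ∈ Z := by
          rw [zpow_mul, zpow_natCast]; exact Z.zpow_mem hyp j
        rw [← hEU]; exact mem_inf.2 ⟨E.mul_mem he (hZE hyi), hv2⟩
      · exfalso; apply hyn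
        have hcop : IsCoprime (p : ℤ) i :=
          (Nat.prime_iff_prime_int.1 hp).coprime_iff_not_dvd.2 hpi
        obtain ⟨s, t, hst⟩ := hcop
        have hyi : y ^ i ∈ E ⊔ U := by
          have : y ^ i = e⁻¹ * (e * y ^ i) := by group
          rw [this]; exact mul_mem (mem_sup_left (E.inv_mem he)) (mem_sup_right hv2)
        have hyeq : y = (y ^ p) ^ s * (y ^ i) ^ t := by
          rw [← zpow_natCast y p, ← zpow_mul, ← zpow_mul, ← zpow_add, mul_comm (p : ℤ) s,
            mul_comm i t, hst, zpow_one]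
        rw [hyeq]
        exact mul_mem (mem_sup_right (U.zpow_mem (hCpow y hy) s)) (zpow_mem hyi t)
    have := hmax hX le_sup_left
    exact hyn (mem_sup_left (this (mem_sup_right (mem_zpowers y))))
  have hs2 : ∀ y ∈ C, y ∉ E ⊔ U → ∀ u ∈ U, (y * u) ^ p ∉ Z := by
    intro y hy hyn u hu h
    apply hyn
    have h1 := hs1 (y * u) (C.mul_mem hy (hCC hu)) h
    have : y = (y * u) * u⁻¹ := by group
    rw [this]; exact mul_mem h1 (mem_sup_right (U.inv_mem hu))
  have hs3 : ∀ y ∈ C, y ∉ E ⊔ U → ∀ u ∈ U, u ∈ zpowers (y ^ p) := by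
    intro y hy hyn u hu
    obtain ⟨k, hk⟩ := mem_zpowers_iff.1 (hUa _ (hCpow y hy))
    have hpk : ¬ (p : ℤ) ∣ k := by
      rintro ⟨j, rfl⟩
      apply hs2 y hy hyn (a ^ (-j)) (U.zpow_mem haU _)
      have hc : Commute y (a ^ (-j)) := hUC _ (U.zpow_mem haU _) y hy
      rw [hc.mul_pow, ← hk, ← zpow_natCast (a ^ (-j)) p, ← zpow_mul, ← zpow_add]
      have : (p : ℤ) * j + -j * (p : ℤ) = 0 := by ring
      rw [this, zpow_zero]; exact Z.one_mem
    have hcop : IsCoprime ((p : ℤ) ^ n) k :=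
      IsCoprime.pow_left ((Nat.prime_iff_prime_int.1 hp).coprime_iff_not_dvd.2 hpk)
    obtain ⟨s, t, hst⟩ := hcop
    have h1 : a ^ ((p : ℤ) ^ n) = 1 := by
      rw [← Nat.cast_pow, zpow_natCast, ← hord, pow_orderOf_eq_one]
    have hak : a = (a ^ k) ^ t := by
      calc a = a ^ (s * (p : ℤ) ^ n + t * k) := by rw [hst, zpow_one]
        _ = (a ^ ((p : ℤ) ^ n)) ^ s * (a ^ k) ^ t := by
          rw [zpow_add, mul_comm s, zpow_mul, mul_comm t, zpow_mul]
        _ = (a ^ k) ^ t := by rw [h1, one_zpow, one_mul]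
    obtain ⟨l, hl⟩ := mem_zpowers_iff.1 (hUa u hu)
    rw [mem_zpowers_iff]
    refine ⟨t * l, ?_⟩
    rw [← hk, zpow_mul, ← hak, hl]
  have hs4 : ∀ y ∈ C, y ∉ E ⊔ U → ∀ y' ∈ C, ∃ i : ℤ, y' * (y ^ i)⁻¹ ∈ E ⊔ U := by
    intro y hy hyn y' hy'
    obtain ⟨i, hi⟩ := mem_zpowers_iff.1 (hs3 y hy hyn _ (hCpow y' hy'))
    refine ⟨i, hs1 _ (C.mul_mem hy' (C.inv_mem (C.zpow_mem hy i))) ?_⟩
    apply pow_mul_inv_mem Z p
    · rw [← hi, ← zpow_natCast (y ^ i) p, ← zpow_mul, mul_comm, zpow_mul, zpow_natCast]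
    · exact hcomZ y' hy' (y ^ i) (C.zpow_mem hy i)
  have hB3 : C ≤ E ⊔ U := by
    intro x hx
    by_contra hxn
    have hn2 : 2 ≤ n := by
      by_contra hn
      have hUZ : U ≤ Z := by
        have : Nat.card U ≤ Nat.card Z := by
          rw [hUcard, hZcard]
          calc p ^ n ≤ p ^ 1 := Nat.pow_le_pow_right hp.pos (by omega)
            _ = p := pow_one p
        exact (Subgroup.eq_of_le_of_card_ge hZU this).ge
      exact hxn (hs1 x hx (hUZ (hCpow x hx)))
    have hdvd := Cfsg.Agent.S0110.index_centralizer_dvd hG E Z hZcen hZcard hGE _ E rfl hZE le_rfl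
    obtain ⟨w, hwC, hwR, hwU⟩ : ∃ w ∈ C, w ∈ centralizer (E : Set G) ∧ w ∉ U := by
      by_contra hcon
      push Not at hcon
      have hCR : C ⊓ centralizer (E : Set G) = U := by
        apply le_antisymm
        · intro w hw
          obtain ⟨h1, h2⟩ := mem_inf.1 hw
          exact hcon w h1 h2
        · refine le_inf hCC ?_
          rw [hUdef]
          exact centralizer_le hEC
      have h1 : Z.relIndex E = U.relIndex (E ⊔ U) := by
        rw [Subgroup.relIndex_sup_right, ← hEU, inf_comm, Subgroup.inf_relIndex_right]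
      have h2 : (centralizer (E : Set G)).relIndex C ≤ (centralizer (E : Set G)).index := by
        rw [← Subgroup.relIndex_top_right]
        exact Subgroup.relIndex_le_of_le_right le_top
          (by rw [Subgroup.relIndex_top_right]; exact Subgroup.index_ne_zero_of_finite)
      have h3 : (centralizer (E : Set G)).index ≤ Z.relIndex E :=
        Nat.le_of_dvd (Nat.pos_of_ne_zero Subgroup.index_ne_zero_of_finite) hdvd
      have h4 : U.relIndex C = (centralizer (E : Set G)).relIndex C := by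
        rw [← hCR, Subgroup.inf_relIndex_left]
      have h5 : U.relIndex (E ⊔ U) * (E ⊔ U).relIndex C = U.relIndex C :=
        Subgroup.relIndex_mul_relIndex U (E ⊔ U) C le_sup_right (sup_le hEC hCC)
      have h6 : (E ⊔ U).relIndex C ≠ 1 := by
        rw [Ne, Subgroup.relIndex_eq_one]
        intro hle
        exact hxn (hle hx)
      have h7 : 0 < U.relIndex (E ⊔ U) := Nat.pos_of_ne_zero Subgroup.index_ne_zero_of_finite
      have h8 : 0 < (E ⊔ U).relIndex C := Nat.pos_of_ne_zero Subgroup.index_ne_zero_of_finite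
      have h9 : U.relIndex C ≤ U.relIndex (E ⊔ U) := by
        rw [h4, ← h1]; exact h2.trans h3
      rw [← h5] at h9
      have h10 : 2 ≤ (E ⊔ U).relIndex C := by omega
      nlinarith
    have hwEU : ∀ m ∈ E ⊔ U, m * w = w * m := by
      intro m hm
      obtain ⟨e, he, u, hu, rfl⟩ := Subgroup.mem_sup_of_normal_left.1 hm
      have h1 : e * w = w * e := (mem_centralizer_iff.1 hwR) e he
      have h2 : u * w = w * u := (hUC u hu w hwC).symm
      rw [mul_assoc, h2, ← mul_assoc, h1, mul_assoc]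
    by_cases hwm : w ∈ E ⊔ U
    · obtain ⟨e, he, u, hu, rfl⟩ := Subgroup.mem_sup_of_normal_left.1 hwm
      have heU : e ∉ U := fun h => hwU (U.mul_mem h hu)
      have heEU : ∀ m ∈ E ⊔ U, m * e = e * m := by
        intro m hm
        have h1 := hwEU m hm
        have h2 : m * u = u * m := hUC u hu m (sup_le hEC hCC hm)
        calc m * e = m * (e * u) * u⁻¹ := by group
          _ = e * u * m * u⁻¹ := by rw [h1]
          _ = e * (u * m) * u⁻¹ := by group
          _ = e * (m * u) * u⁻¹ := by rw [h2]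
          _ = e * m := by group
      haveI hEUchar : (E ⊔ U).Characteristic := by
        rw [Subgroup.characteristic_iff_map_le]
        intro φ
        rintro _ ⟨m, hm, rfl⟩
        obtain ⟨e', he', u', hu', rfl⟩ := Subgroup.mem_sup_of_normal_left.1 hm
        rw [MulEquiv.coe_toMonoidHom, map_mul]
        apply mul_mem _ (mem_sup_right (char_mem U φ hu'))
        apply hs1 _ (char_mem C φ (hEC he'))
        rw [← map_pow]; exact char_mem Z φ (hEpow e' he')
      obtain ⟨A, hA⟩ : ∃ A : Subgroup G,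
          A = (E ⊔ U) ⊓ centralizer ((E ⊔ U : Subgroup G) : Set G) := ⟨_, rfl⟩
      have hAchar : A.Characteristic := by rw [hA]; infer_instance
      have hAmem : ∀ x ∈ A, x ∈ E ⊔ U ∧ x ∈ centralizer ((E ⊔ U : Subgroup G) : Set G) :=
        fun x hx => by rw [hA] at hx; exact mem_inf.1 hx
      have hAcomm : IsMulCommutative ↥A := ⟨⟨fun x y => Subtype.ext
        ((mem_centralizer_iff.1 (hAmem y y.2).2) x (hAmem x x.2).1)⟩⟩
      have hAcyc := hsymp A hAchar hAcomm
      have heA : e ∈ A := by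
        rw [hA]; exact mem_inf.2 ⟨mem_sup_left he, mem_centralizer_iff.2 heEU⟩
      have haA : a ∈ A := by
        rw [hA]
        exact mem_inf.2 ⟨mem_sup_right haU,
          mem_centralizer_iff.2 (fun m hm => hUC a haU m (sup_le hEC hCC hm))⟩
      have hep : e ^ orderOf a = 1 := by
        rw [hord]
        obtain ⟨k, rfl⟩ : ∃ k, n = k + 2 := ⟨n - 2, by omega⟩
        have h1 : e ^ (p * p) = 1 := by rw [pow_mul]; exact hZexp _ (hEpow e he)
        have h2 : p ^ (k + 2) = p * p * p ^ k := by ring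
        rw [h2, pow_mul, h1, one_pow]
      exact heU (by rw [hUeq]; exact cyc_mem_zpowers A hAcyc haA heA hep)
    · apply hwU
      rw [hUdef, mem_centralizer_iff]
      intro c hc
      obtain ⟨i, hi⟩ := hs4 w hwC hwm c hc
      have h1 := hwEU _ hi
      have hcw : Commute (w ^ i) w := (Commute.refl w).zpow_left i
      calc c * w = (c * (w ^ i)⁻¹) * (w ^ i * w) := by group
        _ = (c * (w ^ i)⁻¹) * (w * w ^ i) := by rw [hcw.eq]
        _ = (c * (w ^ i)⁻¹) * w * w ^ i := by group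
        _ = w * (c * (w ^ i)⁻¹) * w ^ i := by rw [h1]
        _ = w * c := by group
  have hEUC : E ⊔ U = C := le_antisymm (sup_le hEC hCC) hB3
  have hCsplit : ∀ c ∈ C, ∃ e ∈ E, ∃ u ∈ U, e * u = c :=
    fun c hc => Subgroup.mem_sup_of_normal_left.1 (hB3 hc)
  have hER : E ⊓ centralizer (E : Set G) = Z := by
    apply le_antisymm
    · intro v hv
      obtain ⟨hvE, hvC⟩ := mem_inf.1 hv
      rw [← hEU]
      refine mem_inf.2 ⟨hvE, ?_⟩
      rw [hUdef, mem_centralizer_iff]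
      intro c hc
      obtain ⟨e, he, u, hu, rfl⟩ := hCsplit c hc
      have h1 : e * v = v * e := (mem_centralizer_iff.1 hvC) e he
      have h2 : u * v = v * u := (hUC u hu v (hEC hvE)).symm
      rw [mul_assoc, h2, ← mul_assoc, h1, mul_assoc]
    · exact le_inf hZE (hZcen.trans (Subgroup.center_le_centralizer _))
  have hEna : ∃ x y : ↥E, x * y ≠ y * x := by
    by_contra hcon
    push Not at hcon
    apply hCab
    have hEZ : E ≤ Z := by
      rw [← hER]
      intro e he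
      exact mem_inf.2 ⟨he, mem_centralizer_iff.2
        (fun f hf => congrArg Subtype.val (hcon ⟨f, hf⟩ ⟨e, he⟩))⟩
    rw [← hEUC]
    exact sup_le (hEZ.trans hZU) le_rfl
  have hES : Cfsg.IsExtraspecial p ↥E := by
    apply mk_extraspecial (hG.to_subgroup E)
    · rw [← Subgroup.card_map_of_injective E.subtype_injective, map_center_subtype, hER, hZcard]
    · intro x y
      rw [mem_center_subtype]
      have h := hcomZ x (hEC x.2) y (hEC y.2)
      rw [← hER] at h
      exact (mem_inf.1 h).2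
    · intro x
      rw [mem_center_subtype, Subgroup.coe_pow]
      have h := hEpow x x.2
      rw [← hER] at h
      exact (mem_inf.1 h).2
    · exact hEna
  have hsup : E ⊔ centralizer (E : Set G) = ⊤ := by
    apply Cfsg.Agent.S0110.result hG E hES
    rw [hER, Subgroup.commutator_le]
    intro g _ e he
    exact hGE g e he
  obtain ⟨R, hRdef⟩ : ∃ R : Subgroup G, R = centralizer (E : Set G) := ⟨_, rfl⟩
  rw [← hRdef] at hsup
  have hER' : ∀ e ∈ E, ∀ r ∈ R, e * r = r * e := fun e he r hr => by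
    rw [hRdef] at hr; exact (mem_centralizer_iff.1 hr) e he
  have hUR : U ≤ R := by rw [hRdef, hUdef]; exact centralizer_le hEC
  have hself : ∀ y ∈ R, (∀ u ∈ U, u * y = y * u) → y ∈ U := by
    intro y hy h
    rw [hUdef, mem_centralizer_iff]
    intro c hc
    obtain ⟨e, he, u, hu, rfl⟩ := hCsplit c hc
    rw [mul_assoc, h u hu, ← mul_assoc, hER' e he y hy, mul_assoc]
  obtain ⟨R₁, hR₁def⟩ : ∃ R₁ : Subgroup G,
      R₁ = centralizer {x : G | x ∈ C ∧ x ^ p ∈ Z} := ⟨_, rfl⟩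
  have hR₁ : R₁.Characteristic := by
    rw [hR₁def]
    apply char_centralizer_of_invariant
    rintro φ x ⟨hx1, hx2⟩
    exact ⟨char_mem C φ hx1, by rw [← map_pow]; exact char_mem Z φ hx2⟩
  have hUR₁ : U ≤ R₁ := by
    rw [hR₁def, hUdef]; exact centralizer_le (fun x hx => hx.1)
  have hR₁R : R₁ ≤ R := by
    rw [hR₁def, hRdef]; exact centralizer_le (fun x hx => ⟨hEC hx, hEpow x hx⟩)
  have hmod : 3 ≤ n → ∀ y ∈ R, (∀ u ∈ U, y * u ^ p = u ^ p * y) → y ∈ R₁ := by
    intro hn y hy hyu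
    rw [hR₁def, mem_centralizer_iff]
    rintro c ⟨hcC, hcp⟩
    obtain ⟨e, he, u, hu, rfl⟩ := hCsplit c hcC
    have hce : Commute e u := hUC u hu e (hEC he)
    rw [hce.mul_pow] at hcp
    have hup : u ^ p ∈ Z := by
      have : u ^ p = (e ^ p)⁻¹ * (e ^ p * u ^ p) := by group
      rw [this]; exact Z.mul_mem (Z.inv_mem (hEpow e he)) hcp
    have hupp : u ^ (p * p) = 1 := by rw [pow_mul]; exact hZexp _ hup
    obtain ⟨l, hl⟩ := mem_zpowers_iff.1 (hUa u hu)
    have hdv : ((p : ℤ) ^ n) ∣ l * ((p : ℤ) * p) := by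
      have h0 : a ^ (l * ((p : ℤ) * p)) = 1 := by
        rw [zpow_mul, hl, ← Nat.cast_mul, zpow_natCast, hupp]
      have h := (orderOf_dvd_iff_zpow_eq_one).2 h0
      rwa [hord, Nat.cast_pow] at h
    have hpl : (p : ℤ) ∣ l := by
      obtain ⟨k, rfl⟩ : ∃ k, n = k + 3 := ⟨n - 3, by omega⟩
      have h1 : (p : ℤ) * ((p : ℤ) * p) ∣ l * ((p : ℤ) * p) := by
        refine dvd_trans ?_ hdv
        exact ⟨(p : ℤ) ^ k, by ring⟩
      have hp0 : ((p : ℤ) * p) ≠ 0 := by
        exact_mod_cast mul_ne_zero hp.ne_zero hp.ne_zero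
      exact (mul_dvd_mul_iff_right hp0).1 h1
    obtain ⟨l', rfl⟩ := hpl
    have hu' : u = (a ^ l') ^ p := by
      rw [← hl, ← zpow_natCast (a ^ l') p, ← zpow_mul, mul_comm]
    have h2 : y * u = u * y := by rw [hu']; exact hyu _ (U.zpow_mem haU l')
    rw [mul_assoc, ← h2, ← mul_assoc, hER' e he y hy, mul_assoc]
  rcases r_analysis hG hsymp U R R₁ hUcyc n hUcard hUR hself hR₁ hUR₁ hR₁R hmod with
    h | ⟨hp2, h16, hshape⟩ | ⟨hcard, hnab⟩
  · exact ⟨E, R, hER', hsup, Or.inr hES, Or.inl h⟩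
  · exact ⟨E, R, hER', hsup, Or.inr hES, Or.inr ⟨hp2, h16, hshape⟩⟩
  · apply concl_of_extraspecial
    obtain ⟨x₁, hx₁, y₁, hy₁, hxy₁⟩ := hnab
    obtain ⟨hcR, hcommR, hpowR⟩ := card_cube_facts (K := ↥R) hcard
      ⟨⟨x₁, hx₁⟩, ⟨y₁, hy₁⟩, fun h => hxy₁ (congrArg Subtype.val h)⟩
    have hZR : R ⊓ centralizer (R : Set G) = Z := by
      symm
      apply Subgroup.eq_of_le_of_card_ge
        (le_inf (hZU.trans hUR) (hZcen.trans (Subgroup.center_le_centralizer _)))
      rw [← map_center_subtype, Subgroup.card_map_of_injective R.subtype_injective, hcR, hZcard]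
    have hRpow : ∀ r ∈ R, r ^ p ∈ Z := by
      intro r hr
      rw [← hZR]
      have := hpowR ⟨r, hr⟩
      rw [mem_center_subtype] at this
      exact mem_inf.2 ⟨R.pow_mem hr p, this⟩
    have hRcomm : ∀ r ∈ R, ∀ r' ∈ R, ⁅r, r'⁆ ∈ Z := by
      intro r hr r' hr'
      rw [← hZR]
      have := hcommR ⟨r, hr⟩ ⟨r', hr'⟩
      rw [mem_center_subtype] at this
      exact mem_inf.2 ⟨(⁅(⟨r, hr⟩ : ↥R), (⟨r', hr'⟩ : ↥R)⁆).2, this⟩
    have hGsplit : ∀ g : G, ∃ e ∈ E, ∃ r ∈ R, e * r = g := fun g =>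
      Subgroup.mem_sup_of_normal_left.1 (by rw [hsup]; exact mem_top g)
    have hcenG : center G = Z := by
      apply le_antisymm
      · intro g hg
        rw [← hZR]
        have hgU : g ∈ U := by
          rw [hUdef, mem_centralizer_iff]
          intro c _
          exact (mem_center_iff.1 hg c)
        exact mem_inf.2 ⟨hUR hgU, mem_centralizer_iff.2 (fun r _ => mem_center_iff.1 hg r)⟩
      · exact hZcen
    apply mk_extraspecial hG
    · rw [hcenG, hZcard]
    · intro g g'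
      rw [hcenG]
      obtain ⟨e, he, r, hr, rfl⟩ := hGsplit g
      obtain ⟨e', he', r', hr', rfl⟩ := hGsplit g'
      apply comm_mem_of_mk_commute Z
      rw [QuotientGroup.mk_mul, QuotientGroup.mk_mul]
      have c1 := mk_commute_of_comm_mem Z (hcomZ e (hEC he) e' (hEC he'))
      have c2 := mk_commute_of_comm_mem Z (hRcomm r hr r' hr')
      have c3 : Commute (QuotientGroup.mk (s := Z) e) (QuotientGroup.mk r') := by
        have := congrArg (QuotientGroup.mk (s := Z)) (hER' e he r' hr')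
        rwa [QuotientGroup.mk_mul, QuotientGroup.mk_mul] at this
      have c4 : Commute (QuotientGroup.mk (s := Z) r) (QuotientGroup.mk e') := by
        have := congrArg (QuotientGroup.mk (s := Z)) (hER' e' he' r hr)
        rw [QuotientGroup.mk_mul, QuotientGroup.mk_mul] at this
        exact this.symm
      exact (c1.mul_right c3).mul_left (c4.mul_right c2)
    · intro g
      rw [hcenG]
      obtain ⟨e, he, r, hr, rfl⟩ := hGsplit g
      have hc : Commute e r := hER' e he r hr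
      rw [hc.mul_pow]
      exact Z.mul_mem (hEpow e he) (hRpow r hr)
    · obtain ⟨x, y, hxy⟩ := hEna
      exact ⟨x, y, fun h => hxy (Subtype.ext h)⟩

/-- **P. Hall's theorem** on `p`-groups of symplectic type. -/
theorem hall [Finite G] {p : ℕ} [Fact p.Prime] (hG : IsPGroup p G)
    (hsymp : ∀ A : Subgroup G, A.Characteristic → IsMulCommutative A → IsCyclic A) :
    Concl p G := by
  classical
  obtain ⟨C, hCchar, hCpow, hCcomm, hGC, hCC, -⟩ :=
    Cfsg.Agent.Lib.Helper34.Critical.exists_critical hG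
  haveI := hCchar
  obtain ⟨U, hUdef⟩ : ∃ U : Subgroup G, U = centralizer (C : Set G) := ⟨_, rfl⟩
  have hUchar : U.Characteristic := by rw [hUdef]; infer_instance
  have hUmem : ∀ u ∈ U, u ∈ centralizer (C : Set G) := fun u hu => hUdef ▸ hu
  have hUC : U ≤ C := fun u hu => hCC (hUmem u hu)
  have hUcomm : IsMulCommutative ↥U := ⟨⟨fun a b => Subtype.ext
    ((mem_centralizer_iff.1 (hUmem a a.2)) b (hUC b.2)).symm⟩⟩
  have hUcyc : IsCyclic ↥U := hsymp U hUchar hUcomm
  by_cases hCab : C ≤ U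
  · apply case_a hG hsymp U hUchar hUcyc
    intro y hy
    rw [hUdef, mem_centralizer_iff]
    intro c hc
    exact hy c (hCab hc)
  · exact case_b hG hsymp C U hCchar hUdef (fun a ha => by rw [hUdef]; exact (hCpow a ha).2)
      (by rw [hUdef]; exact hCcomm)
      (fun g x hx => by
        rw [hUdef]; exact (hGC (commutator_mem_commutator (mem_top g) hx)).2)
      hUC hUcyc hCab

end Cfsg.Agent.Lib.Helper4.SympC
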